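import Cfsg.Agent.H209.IF.Kill
import Cfsg.Agent.S2119

/-!
# S5719, block ALT: base

For `T = A_m` (`m ≥ 7`) the group `Γ` is the image of `P = {g ∈ S_m | conj g ∈ Γ}`, and `A = P ∩ A_m`.
-/

set_option autoImplicit false
set_option linter.unusedSectionVars false

namespace Cfsg.Agent.H132.IF

open Equiv Equiv.Perm MulAction Subgroup Cfsg.Agent.H209.Fxy

variable {m : ℕ}

/-- conjugation of `A_m` by permutations -/
def cn (m : ℕ) : Perm (Fin m) →* MulAut (alternatingGroup (Fin m)) := MulAut.conjNormal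

theorem cn_apply (g : Perm (Fin m)) (x : alternatingGroup (Fin m)) :
    ((cn m g x : alternatingGroup (Fin m)) : Perm (Fin m)) = g * x * g⁻¹ := MulAut.conjNormal_apply g x

theorem cn_bij (hm : 7 ≤ m) : Function.Bijective (cn m) := Cfsg.Agent.S2119.result m (by omega) (by omega)

theorem cn_coe (a : alternatingGroup (Fin m)) : cn m (a : Perm (Fin m)) = MulAut.conj a := by
  ext1 x
  apply Subtype.ext
  rw [cn_apply, MulAut.conj_apply]
  rfl

/-- the group of permutations inducing `Γ` -/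
def PG (Γ : Subgroup (MulAut (alternatingGroup (Fin m)))) : Subgroup (Perm (Fin m)) := Γ.comap (cn m)

variable {A : Subgroup (alternatingGroup (Fin m))} {Γ : Subgroup (MulAut (alternatingGroup (Fin m)))}

theorem mem_PG {g : Perm (Fin m)} : g ∈ PG Γ ↔ cn m g ∈ Γ := Iff.rfl

theorem exists_PG (hm : 7 ≤ m) {σ : MulAut (alternatingGroup (Fin m))} (hσ : σ ∈ Γ) :
    ∃ g ∈ PG Γ, σ = cn m g := by
  obtain ⟨g, rfl⟩ := (cn_bij hm).2 σ
  exact ⟨g, hσ, rfl⟩

theorem mem_A (h : IF A Γ) (a : alternatingGroup (Fin m)) : a ∈ A ↔ (a : Perm (Fin m)) ∈ PG Γ := by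
  rw [mem_PG, cn_coe]
  exact (h.conj a).symm

theorem A_eq (h : IF A Γ) : A = (PG Γ).subgroupOf (alternatingGroup (Fin m)) := by
  ext a
  rw [mem_A h, Subgroup.mem_subgroupOf]

theorem not_le (h : IF A Γ) : ¬ alternatingGroup (Fin m) ≤ PG Γ := by
  intro h1
  apply h.ne_top
  rw [Subgroup.eq_top_iff']
  intro a
  exact (mem_A h a).2 (h1 a.2)

theorem index_eq' (h : IF A Γ) : A.index = (PG Γ).relIndex (alternatingGroup (Fin m)) := by
  rw [A_eq h]
  rfl

theorem orderOf_cn (hm : 7 ≤ m) (g : Perm (Fin m)) : orderOf (cn m g) = orderOf g :=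
  orderOf_injective _ (cn_bij hm).1 g

theorem exists_inv (hm : 7 ≤ m) (h : IF A Γ) : ∃ t ∈ PG Γ, orderOf t = 2 := by
  obtain ⟨σ, hσ, h2, -⟩ := h.ex
  obtain ⟨g, hg, rfl⟩ := exists_PG hm hσ
  rw [orderOf_cn hm] at h2
  exact ⟨g, hg, h2⟩

/-- the fixed points of a permutation `t ∈ P` on `A_m/A` -/
theorem fx_cn (h : IF A Γ) (t : Perm (Fin m)) :
    fixSet A (cn m t) = {c : alternatingGroup (Fin m) ⧸ A | ∃ y : alternatingGroup (Fin m),
      (y : alternatingGroup (Fin m) ⧸ A) = c ∧ (y : Perm (Fin m))⁻¹ * t * y * t⁻¹ ∈ PG Γ} := by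
  ext c
  constructor
  · rintro ⟨y, hy, h1⟩
    refine ⟨y, hy, ?_⟩
    rw [mem_A h] at h1
    have h2 : ((y⁻¹ * cn m t y : alternatingGroup (Fin m)) : Perm (Fin m)) = (y : Perm (Fin m))⁻¹ * t * y * t⁻¹ := by
      rw [Subgroup.coe_mul, cn_apply, Subgroup.coe_inv]
      group
    rwa [h2] at h1
  · rintro ⟨y, hy, h1⟩
    refine ⟨y, hy, ?_⟩
    rw [mem_A h]
    have h2 : ((y⁻¹ * cn m t y : alternatingGroup (Fin m)) : Perm (Fin m)) = (y : Perm (Fin m))⁻¹ * t * y * t⁻¹ := by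
      rw [Subgroup.coe_mul, cn_apply, Subgroup.coe_inv]
      group
    rwa [h2]

theorem fx_cn_mem (h : IF A Γ) {t : Perm (Fin m)} (ht : t ∈ PG Γ) :
    fixSet A (cn m t) = {c : alternatingGroup (Fin m) ⧸ A | ∃ y : alternatingGroup (Fin m),
      (y : alternatingGroup (Fin m) ⧸ A) = c ∧ (y : Perm (Fin m))⁻¹ * t * y ∈ PG Γ} := by
  rw [fx_cn h]
  ext c
  constructor
  · rintro ⟨y, hy, h1⟩
    refine ⟨y, hy, ?_⟩
    have h2 := (PG Γ).mul_mem h1 ht
    rwa [inv_mul_cancel_right] at h2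
  · rintro ⟨y, hy, h1⟩
    exact ⟨y, hy, (PG Γ).mul_mem h1 ((PG Γ).inv_mem ht)⟩

theorem small (hm : 7 ≤ m) (h : IF A Γ) {t : Perm (Fin m)} (ht : t ∈ PG Γ) (h2 : orderOf t = 2) :
    fx A (cn m t) ^ 6 < A.index := h.small _ ht (by rw [orderOf_cn hm, h2])

/-- degrees 5 and 6: `n ≤ 360` -/
theorem kill_small {n : ℕ} (h5 : 5 ≤ n) (h6 : n ≤ 6) : Kill (alternatingGroup (Fin n)) := by
  intro A Γ h
  have h1 := h.big
  have h2 : A.index ∣ Nat.card (alternatingGroup (Fin n)) := Subgroup.index_dvd_card A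
  have h3 : Nat.card (alternatingGroup (Fin n)) ≤ 360 := by
    have : Nontrivial (Fin n) := Fin.nontrivial_iff_two_le.2 (by omega)
    rw [nat_card_alternatingGroup, Nat.card_eq_fintype_card, Fintype.card_fin]
    interval_cases n <;> decide
  have h4 := Nat.le_of_dvd Nat.card_pos h2
  omega

end Cfsg.Agent.H132.IF
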