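import Cfsg.Agent.H132.IF.Alt
import Cfsg.Agent.H804.IF.Prim
import Cfsg.Agent.H111.IFA.Prim

/-!
# S5719, block ALT: the row
-/

set_option autoImplicit false

namespace Cfsg.Agent.H132.IF

open Equiv Equiv.Perm MulAction Subgroup Cfsg.Agent.H209.Fxy

/-- **No counterexample to S5719 in the alternating groups.** -/
theorem kill_alt (n : ℕ) (h5 : 5 ≤ n) : Kill (alternatingGroup (Fin n)) := by
  rcases Nat.lt_or_ge 6 n with h6 | h6
  · intro A Γ h
    have hm : 7 ≤ n := h6
    have hP : ∀ σ ∈ Γ, ∃ g ∈ PG Γ, σ = MulAut.conjNormal g := fun σ hσ => exists_PG hm hσ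
    have hA : ∀ a ∈ A, (a : Perm (Fin n)) ∈ PG Γ := fun a ha => (mem_A h a).1 ha
    exact Cfsg.Agent.H111.IFA.prim_false hm h (PG Γ) hP (fun g hg => hg) hA
      (Cfsg.Agent.H804.IF.isPreprimitive hm h (PG Γ) hP hA)
  · exact kill_small h5 h6

theorem row_alt : Row fun T => Cfsg.IsAlternating T := row_alt_of kill_alt

end Cfsg.Agent.H132.IF
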