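import Cfsg.Agent.H680.IF.EngA
import Cfsg.Agent.Lib.Cores
import Cfsg.Agent.S2154
import Cfsg.Agent.S2155
import Cfsg.Agent.S1048

/-!
# S5719: a local subgroup `A` of a Chevalley group is parabolic (Borel–Tits)

* `op p A` : `O_p(A)` as a subgroup of `T`; `op_inv`, `op_norm`, `le_op`;
* `parab` : `IF A Γ`, `T` a Chevalley group in characteristic `p`, `O_p(A) ≠ 1` ⟹ `A` is parabolic.
-/

set_option autoImplicit false
set_option linter.unusedSectionVars false

namespace Cfsg.Agent.H132.IF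

open MulAction Subgroup Cfsg Cfsg.Agent.H209.Fxy

section

variable {T : Type*} [Group T] [Finite T] {A : Subgroup T} {Γ : Subgroup (MulAut T)}

/-- `O_p(A)` as a subgroup of `T` -/
def op (p : ℕ) (A : Subgroup T) : Subgroup T := (pCore p ↥A).map A.subtype

theorem op_le (p : ℕ) : op p A ≤ A := Subgroup.map_subtype_le _

theorem op_isPGroup (p : ℕ) : IsPGroup p ↥(op p A) := (Lib.Cores.pCore_isPGroup p).map _

theorem op_conj (p : ℕ) {a k : T} (ha : a ∈ A) (hk : k ∈ op p A) : a * k * a⁻¹ ∈ op p A := by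
  obtain ⟨x, hx, rfl⟩ := hk
  have h1 : (pCore p ↥A).Normal := Lib.Cores.pCore_normal p
  exact ⟨⟨a, ha⟩ * x * ⟨a, ha⟩⁻¹, h1.conj_mem x hx ⟨a, ha⟩, rfl⟩

theorem le_op {p : ℕ} {R : Subgroup T} (hR : IsPGroup p ↥R) (hRA : R ≤ A)
    (hn : ∀ a ∈ A, ∀ r ∈ R, a * r * a⁻¹ ∈ R) : R ≤ op p A := by
  have h1 : (R.subgroupOf A).Normal := ⟨fun x hx g => hn g g.2 x hx⟩
  have h2 : IsPGroup p ↥(R.subgroupOf A) := hR.comap_of_injective A.subtype A.subtype_injective
  intro x hx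
  exact ⟨⟨x, hRA hx⟩, Lib.Cores.le_pCore h1 h2 hx, rfl⟩

/-- the automorphism of `A` induced by `σ ∈ Γ` -/
theorem exists_res (h : IF A Γ) {σ : MulAut T} (hσ : σ ∈ Γ) : ∃ e : ↥A ≃* ↥A, ∀ a : ↥A, ((e a : ↥A) : T) = σ a := by
  refine ⟨⟨⟨fun a => ⟨σ a, (h.inv σ hσ a).2 a.2⟩, fun a => ⟨σ⁻¹ a, ?_⟩, ?_, ?_⟩, ?_⟩, fun a => rfl⟩
  · exact (h.inv σ⁻¹ (Γ.inv_mem hσ) a).2 a.2
  · intro a
    apply Subtype.ext
    exact MulAut.inv_apply_self T σ a
  · intro a
    apply Subtype.ext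
    exact MulAut.apply_inv_self T σ a
  · intro a b
    apply Subtype.ext
    exact map_mul σ (a : T) b

/-- characteristic subgroups of `A` are `Γ`-invariant -/
theorem char_inv (h : IF A Γ) (C : Subgroup ↥A) [hC : C.Characteristic] :
    ∀ σ ∈ Γ, ∀ k ∈ C.map A.subtype, σ k ∈ C.map A.subtype := by
  rintro σ hσ _ ⟨x, hx, rfl⟩
  obtain ⟨e, he⟩ := exists_res h hσ
  refine ⟨e x, ?_, he x⟩
  have h1 := hC.fixed e
  rw [← h1] at hx
  exact hx

theorem op_inv (h : IF A Γ) (p : ℕ) : ∀ σ ∈ Γ, ∀ k ∈ op p A, σ k ∈ op p A := by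
  have : (pCore p ↥A).Characteristic := Lib.Cores.pCore_characteristic p
  exact char_inv h (pCore p ↥A)

end

section

open Cfsg.Lie

variable {F : Type*} [Field F] [Fintype F] (p : ℕ) [Fact p.Prime] [CharP F p] (D : ChevalleyDatum)

/-- **Borel–Tits for counterexamples**: if `O_p(A) ≠ 1`, then `A` is a parabolic subgroup. -/
theorem parab (hD : D ∈ [chevG2, chevB2, chevD4, chevF4, chevE6, chevE7, chevE8])
    [IsSimpleGroup ↥(D.group F)] {A : Subgroup ↥(D.group F)} {Γ : Subgroup (MulAut ↥(D.group F))} (h : IF A Γ)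
    (hne : op p A ≠ ⊥) : ∃ g ∈ D.group F, ∃ J : Set ℕ, (∃ i, i < D.rank ∧ i ∉ J) ∧
      A = ((D.parabolicSubgroup F J).map (MulAut.conj g).toMonoidHom).subgroupOf (D.group F) := by
  classical
  have hfin : Finite ↥(D.group F) := inferInstance
  set R := op p A with hR
  set U : Subgroup (GL D.Idx F) := R.map (D.group F).subtype with hU
  have hUG : U ≤ D.group F := by
    rintro _ ⟨x, -, rfl⟩
    exact x.2
  have hUp : IsPGroup p ↥U := (op_isPGroup p).map _
  have hUne : U ≠ ⊥ := by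
    intro h1
    exact hne ((Subgroup.map_eq_bot_iff_of_injective R (D.group F).subtype_injective).1 h1)
  obtain ⟨g, hg, J, hJ, hN, hUV⟩ := S2154.result p D hD U hUG hUp hUne
  refine ⟨g, hg, J, hJ, ?_⟩
  set P := (D.parabolicSubgroup F J).map (MulAut.conj g).toMonoidHom with hP
  set V := (D.unipotentRadical F J).map (MulAut.conj g).toMonoidHom with hV
  obtain ⟨hPV, hsup, -⟩ := S1048.result (F := F) D hD J
  have hVP0 : D.unipotentRadical F J ≤ D.parabolicSubgroup F J := by rw [← hsup]; exact le_sup_left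
  have hVP : V ≤ P := Subgroup.map_mono hVP0
  have hVp : IsPGroup p ↥V := (S2155.isPGroup p D hD J).map _
  have hPnV : ∀ x ∈ P, ∀ v ∈ V, x * v * x⁻¹ ∈ V := by
    rintro _ ⟨x, hx, rfl⟩ _ ⟨v, hv, rfl⟩
    refine ⟨x * v * x⁻¹, (mem_normalizer_iff.1 (hPV hx) v).1 hv, ?_⟩
    simp only [MulEquiv.coe_toMonoidHom, map_mul, map_inv]
  -- `A ≤ P`
  have hAP : ∀ a ∈ A, (a : GL D.Idx F) ∈ P := by
    intro a ha
    apply hN
    refine ⟨?_, a.2⟩
    refine mem_normalizer_iff.2 ?_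
    intro x
    constructor
    · rintro ⟨r, hr, rfl⟩
      exact ⟨a * r * a⁻¹, op_conj p ha hr, rfl⟩
    · rintro ⟨r, hr, he⟩
      refine ⟨a⁻¹ * r * a⁻¹⁻¹, op_conj p (A.inv_mem ha) hr, ?_⟩
      have h2 : (r : GL D.Idx F) = a * x * (a : GL D.Idx F)⁻¹ := he
      change ((a : GL D.Idx F))⁻¹ * (r : GL D.Idx F) * ((a : GL D.Idx F))⁻¹⁻¹ = x
      rw [h2]
      group
  -- `V ∩ A = R`
  set W : Subgroup ↥(D.group F) := V.subgroupOf (D.group F) with hW
  have hRW : R ≤ W := fun r hr => hUV ⟨r, hr, rfl⟩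
  have hWA : W ⊓ A ≤ R := by
    apply le_op
    · have h1 : IsPGroup p ↥W := hVp.comap_of_injective (D.group F).subtype (D.group F).subtype_injective
      exact h1.to_le inf_le_left
    · exact inf_le_right
    · rintro a ha r ⟨hr, hrA⟩
      exact ⟨hPnV a (hAP a ha) r hr, A.mul_mem (A.mul_mem ha hrA) (A.inv_mem ha)⟩
  have hRA : R ≤ A := op_le p
  have hinv := op_inv h p
  -- `R = W`
  have hRW' : R = W := by
    by_contra hcon
    have hWp : IsPGroup p ↥W := hVp.comap_of_injective (D.group F).subtype (D.group F).subtype_injective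
    have hnil : Group.IsNilpotent ↥W := hWp.isNilpotent
    have hlt : R.subgroupOf W < ⊤ := by
      rw [lt_top_iff_ne_top]
      intro h1
      exact hcon (le_antisymm hRW (Subgroup.subgroupOf_eq_top.1 h1))
    have hnc := Group.normalizerCondition_of_isNilpotent (G := ↥W) (R.subgroupOf W) hlt
    obtain ⟨x, hx, hxR⟩ := SetLike.exists_of_lt hnc
    apply hxR
    rw [Subgroup.mem_subgroupOf]
    apply hWA
    refine ⟨x.2, ?_⟩
    apply H680.Fxy.IF.norm h hRA hinv hne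
    intro k hk
    have h2 := (mem_normalizer_iff.1 hx ⟨k, hRW hk⟩).1 (Subgroup.mem_subgroupOf.2 hk)
    exact Subgroup.mem_subgroupOf.1 h2
  apply le_antisymm
  · intro a ha
    exact hAP a ha
  · intro x hx
    apply H680.Fxy.IF.norm h hRA hinv hne
    intro k hk
    rw [hRW'] at hk ⊢
    exact hPnV x hx k hk

end

end Cfsg.Agent.H132.IF
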