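import Cfsg.Agent.H132.IF.Parab
import Cfsg.Agent.S1033

/-!
# S5719, `G₂(q)`, `q` odd: if `O_p(A) ≠ 1`, then `A` has two commuting involutions
-/

set_option autoImplicit false
set_option linter.unusedSectionVars false

namespace Cfsg.Agent.H132.IF

open MulAction Subgroup Cfsg Cfsg.Lie Cfsg.Agent.H209.Fxy

section

variable {F : Type*} [Field F]

/-- the diagonal entries of `h_{p_i}(-1)` -/
def dgv (F : Type*) [Field F] (i : ℕ) : chevG2.Idx → F :=
  Sum.elim (fun _ => (1 : F)) (fun s : Fin chevG2.nroots => (-1 : F) ^ (chevG2.cartan i s))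

theorem dgv_sq (i : ℕ) (x : chevG2.Idx) : dgv F i x * dgv F i x = 1 := by
  rcases x with x | x
  · exact one_mul 1
  · change (-1 : F) ^ (chevG2.cartan i x) * (-1 : F) ^ (chevG2.cartan i x) = 1
    rw [← mul_zpow, neg_one_mul, neg_neg, one_zpow]

/-- `h_{p_i}(-1)` in `GL` -/
def tor (F : Type*) [Field F] (i : ℕ) : GL chevG2.Idx F :=
  ⟨Matrix.diagonal (dgv F i), Matrix.diagonal (dgv F i),
    by rw [Matrix.diagonal_mul_diagonal, ← Matrix.diagonal_one]; congr 1; funext x; exact dgv_sq i x,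
    by rw [Matrix.diagonal_mul_diagonal, ← Matrix.diagonal_one]; congr 1; funext x; exact dgv_sq i x⟩

theorem tor_coe (i : ℕ) : ((tor F i : GL chevG2.Idx F) : Matrix chevG2.Idx chevG2.Idx F) =
    Matrix.diagonal (dgv F i) := rfl

theorem tor_sq (i : ℕ) : tor F i * tor F i = 1 := by
  apply Units.ext
  change Matrix.diagonal (dgv F i) * Matrix.diagonal (dgv F i) = 1
  rw [Matrix.diagonal_mul_diagonal, ← Matrix.diagonal_one]
  congr 1
  funext x
  exact dgv_sq i x

theorem tor_comm (i j : ℕ) : tor F i * tor F j = tor F j * tor F i := by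
  apply Units.ext
  change Matrix.diagonal (dgv F i) * Matrix.diagonal (dgv F j) =
    Matrix.diagonal (dgv F j) * Matrix.diagonal (dgv F i)
  rw [Matrix.diagonal_mul_diagonal, Matrix.diagonal_mul_diagonal]
  congr 1
  funext x
  exact mul_comm _ _

theorem tor_mem {i : ℕ} (hi : i < 2) (J : Set ℕ) : tor F i ∈ chevG2.parabolicSubgroup F J := by
  have h1 : tor F i ∈ chevG2.diagonalSubgroup F := by
    apply Subgroup.subset_closure
    refine ⟨chevG2.simple i, -1, ?_, neg_ne_zero.2 one_ne_zero, ?_⟩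
    · interval_cases i <;> decide
    · rw [S1033.result chevG2 (by simp) i hi (-1) (neg_ne_zero.2 one_ne_zero)]
      rfl
  exact Subgroup.mem_sup_left (Subgroup.mem_sup_right h1)

theorem tor_ne (h2 : (2 : F) ≠ 0) : tor F 0 ≠ 1 ∧ tor F 1 ≠ 1 ∧ tor F 0 ≠ tor F 1 := by
  have hne : (-1 : F) ≠ 1 := by
    intro h
    apply h2
    have h3 : (1 : F) + 1 = 0 := by
      nth_rewrite 1 [← h]
      exact neg_add_cancel 1
    rw [← h3]
    norm_num
  have e01 : dgv F 0 (Sum.inr ⟨6, by decide⟩) = -1 := by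
    change (-1 : F) ^ (chevG2.cartan 0 6) = -1
    have : (chevG2.cartan 0 6 : ℤ) = -3 := by decide
    rw [this]
    norm_num
  have e00 : dgv F 0 (Sum.inr ⟨7, by decide⟩) = 1 := by
    change (-1 : F) ^ (chevG2.cartan 0 7) = 1
    have : (chevG2.cartan 0 7 : ℤ) = 2 := by decide
    rw [this]
    norm_num
  have e10 : dgv F 1 (Sum.inr ⟨7, by decide⟩) = -1 := by
    change (-1 : F) ^ (chevG2.cartan 1 7) = -1
    have : (chevG2.cartan 1 7 : ℤ) = -1 := by decide
    rw [this]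
    norm_num
  have key : ∀ (i : ℕ) (x : chevG2.Idx), ((tor F i : GL chevG2.Idx F) : Matrix chevG2.Idx chevG2.Idx F) x x = dgv F i x :=
    fun i x => by rw [tor_coe, Matrix.diagonal_apply_eq]
  have one : ∀ x : chevG2.Idx, ((1 : GL chevG2.Idx F) : Matrix chevG2.Idx chevG2.Idx F) x x = 1 := by
    intro x
    rw [Units.val_one, Matrix.one_apply_eq]
  refine ⟨?_, ?_, ?_⟩
  · intro h
    have h3 := key 0 (Sum.inr ⟨6, by decide⟩)
    rw [h, one, e01] at h3
    exact hne h3.symm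
  · intro h
    have h3 := key 1 (Sum.inr ⟨7, by decide⟩)
    rw [h, one, e10] at h3
    exact hne h3.symm
  · intro h
    have h3 := key 0 (Sum.inr ⟨7, by decide⟩)
    rw [h, key, e00, e10] at h3
    exact hne h3

variable [Fintype F]

/-- **`G₂(q)`, `q` odd: if `O_p(A) ≠ 1`, then `A` has two commuting involutions.** -/
theorem two_of_op (h2 : (2 : F) ≠ 0) (p : ℕ) [Fact p.Prime] [CharP F p] [IsSimpleGroup ↥(chevG2.group F)]
    {A : Subgroup ↥(chevG2.group F)} {Γ : Subgroup (MulAut ↥(chevG2.group F))} (h : IF A Γ) (hne : op p A ≠ ⊥) :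
    ∃ s ∈ A, ∃ t ∈ A, s ≠ t ∧ s * t = t * s ∧ orderOf s = 2 ∧ orderOf t = 2 := by
  obtain ⟨g, hg, J, -, hA⟩ := parab p chevG2 (by simp) h hne
  obtain ⟨h0, h1, h01⟩ := tor_ne h2
  have hmem : ∀ i, i < 2 → g * tor F i * g⁻¹ ∈ chevG2.group F ∧
      g * tor F i * g⁻¹ ∈ (chevG2.parabolicSubgroup F J).map (MulAut.conj g).toMonoidHom := by
    intro i hi
    have h3 : g * tor F i * g⁻¹ ∈ (chevG2.parabolicSubgroup F J).map (MulAut.conj g).toMonoidHom :=
      ⟨tor F i, tor_mem hi J, rfl⟩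
    refine ⟨?_, h3⟩
    have h4 : tor F i ∈ chevG2.group F := by
      have h5 := tor_mem (F := F) hi (∅ : Set ℕ)
      have h6 := S1049.result (F := F) chevG2 (by simp) (∅ : Set ℕ) (fun j hj => absurd hj (by simp))
      rw [← h6] at h5
      exact h5.2
    exact mul_mem (mul_mem hg h4) (inv_mem hg)
  have hsq : ∀ i, (g * tor F i * g⁻¹) * (g * tor F i * g⁻¹) = 1 := by
    intro i
    calc (g * tor F i * g⁻¹) * (g * tor F i * g⁻¹) = g * (tor F i * tor F i) * g⁻¹ := by group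
      _ = 1 := by rw [tor_sq, mul_one, mul_inv_cancel]
  have hcj : ∀ a : GL chevG2.Idx F, g * a * g⁻¹ = 1 → a = 1 := by
    intro a ha
    have := congrArg (fun x => g⁻¹ * x * g) ha
    simpa [mul_assoc] using this
  have hord : ∀ i, i < 2 → tor F i ≠ 1 → ∀ x : ↥(chevG2.group F), (x : GL chevG2.Idx F) = g * tor F i * g⁻¹ →
      orderOf x = 2 := by
    intro i hi hi1 x hx
    apply orderOf_eq_prime
    · apply Subtype.ext
      change ((x ^ 2 : ↥(chevG2.group F)) : GL chevG2.Idx F) = 1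
      rw [Subgroup.coe_pow, hx, pow_two, hsq]
    · intro h3
      apply hi1
      apply hcj
      rw [← hx, h3]
      rfl
  refine ⟨⟨_, (hmem 0 (by norm_num)).1⟩, ?_, ⟨_, (hmem 1 (by norm_num)).1⟩, ?_, ?_, ?_,
    hord 0 (by norm_num) h0 _ rfl, hord 1 (by norm_num) h1 _ rfl⟩
  · rw [hA, Subgroup.mem_subgroupOf]
    exact (hmem 0 (by norm_num)).2
  · rw [hA, Subgroup.mem_subgroupOf]
    exact (hmem 1 (by norm_num)).2
  · intro h3
    apply h01
    have h4 : g * tor F 0 * g⁻¹ = g * tor F 1 * g⁻¹ := congrArg Subtype.val h3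
    exact mul_left_cancel (mul_right_cancel h4)
  · apply Subtype.ext
    change g * tor F 0 * g⁻¹ * (g * tor F 1 * g⁻¹) = g * tor F 1 * g⁻¹ * (g * tor F 0 * g⁻¹)
    calc g * tor F 0 * g⁻¹ * (g * tor F 1 * g⁻¹) = g * (tor F 0 * tor F 1) * g⁻¹ := by group
      _ = g * (tor F 1 * tor F 0) * g⁻¹ := by rw [tor_comm]
      _ = _ := by group

end

end Cfsg.Agent.H132.IF
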